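import Cfsg.Agent.Sp4Pres.Model
import Cfsg.Agent.SL2Pres.Main
import Cfsg.Agent.SympSub.Count
import Cfsg.Agent.Linear.Symplectic
import Cfsg.Prelude.Def_Classical

/-!
`Sp₄` and `PSp₄` over a finite field with six generators and at most 32, resp. 33 relations.
-/

set_option autoImplicit false

namespace Cfsg.Agent.Sp4Pres

open Matrix Cfsg.Agent.Chev

variable {F : Type*} [Field F]

/-- Generators of the first copy. -/
def ea : Fin 3 → Fin 6 := Fin.castAdd 3

/-- Generators of the second copy. -/
def eb : Fin 3 → Fin 6 := Fin.natAdd 3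

theorem cases_six (k : Fin 6) : (∃ j, k = ea j) ∨ ∃ j, k = eb j := by
  refine Fin.addCases (m := 3) (n := 3) (fun j => Or.inl ⟨j, rfl⟩) (fun j => Or.inr ⟨j, rfl⟩) k

section

variable (S : Finset (FreeGroup (Fin 3)))
variable (φ : PresentedGroup (↑S : Set (FreeGroup (Fin 3))) ≃* SpecialLinearGroup (Fin 2) F) (ζ : Fˣ)

/-- A word for an element of `SL₂`. -/
noncomputable def rep (g : SpecialLinearGroup (Fin 2) F) : FreeGroup (Fin 3) :=
  (QuotientGroup.mk_surjective (φ.symm g)).choose

theorem rep_spec (g : SpecialLinearGroup (Fin 2) F) : φ (PresentedGroup.mk _ (rep S φ g)) = g := by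
  have : PresentedGroup.mk (↑S : Set (FreeGroup (Fin 3))) (rep S φ g) = φ.symm g :=
    (QuotientGroup.mk_surjective (φ.symm g)).choose_spec
  rw [this, MulEquiv.apply_symm_apply]

/-- The words for the relations joining the copies. -/
noncomputable def words : List (FreeGroup (Fin 6) × FreeGroup (Fin 6)) :=
  pairs (fun g => FreeGroup.map ea (rep S φ g)) (fun g => FreeGroup.map eb (rep S φ g)) ζ

open scoped Classical in
/-- The relations. -/
noncomputable def base : Finset (FreeGroup (Fin 6)) :=
  S.image (FreeGroup.map ea) ∪ S.image (FreeGroup.map eb) ∪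
    ((words S φ ζ).map fun e => e.1 * e.2⁻¹).toFinset

theorem card_base : (base S φ ζ).card ≤ S.card + S.card + 14 := by
  classical
  refine (Finset.card_union_le _ _).trans (add_le_add ((Finset.card_union_le _ _).trans
    (add_le_add Finset.card_image_le Finset.card_image_le)) ((List.toFinset_card_le _).trans ?_))
  rw [List.length_map, words, length_pairs]

variable {R : Set (FreeGroup (Fin 6))}

theorem exists_copies (hR : ↑(base S φ ζ) ⊆ R) :
    ∃ A B : SpecialLinearGroup (Fin 2) F →* PresentedGroup R, Sys A B ζ ∧ A.range ⊔ B.range = ⊤ ∧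
      (∀ g, A g = PresentedGroup.mk R (FreeGroup.map ea (rep S φ g))) ∧
      ∀ g, B g = PresentedGroup.mk R (FreeGroup.map eb (rep S φ g)) := by
  classical
  have key : ∀ (e : Fin 3 → Fin 6), ↑(S.image (FreeGroup.map e)) ⊆ R →
      ∃ A : SpecialLinearGroup (Fin 2) F →* PresentedGroup R,
        (∀ j, A (φ (PresentedGroup.of j)) = PresentedGroup.of (e j)) ∧
        ∀ g, A g = PresentedGroup.mk R (FreeGroup.map e (rep S φ g)) := by
    intro e he
    have hl : FreeGroup.lift (fun j => (PresentedGroup.of (e j) : PresentedGroup R)) =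
        (PresentedGroup.mk R).comp (FreeGroup.map e) :=
      FreeGroup.ext_hom _ _ fun j => by simp [PresentedGroup.of]
    refine ⟨(PresentedGroup.toGroup (f := fun j => (PresentedGroup.of (e j) : PresentedGroup R))
      fun r hr => ?_).comp φ.symm.toMonoidHom, fun j => ?_, fun g => ?_⟩
    · rw [hl]
      exact PresentedGroup.one_of_mem (he (Finset.mem_image_of_mem _ hr))
    · simp
    · have e1 : φ.symm g = PresentedGroup.mk _ (rep S φ g) := by
        conv_lhs => rw [← rep_spec S φ g, MulEquiv.symm_apply_apply]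
      rw [MonoidHom.comp_apply, MulEquiv.coe_toMonoidHom, e1]
      exact DFunLike.congr_fun hl (rep S φ g)
  obtain ⟨A, hA, hA'⟩ := key ea fun r hr => hR (by
    rw [Finset.mem_coe] at hr ⊢; exact Finset.mem_union_left _ (Finset.mem_union_left _ hr))
  obtain ⟨B, hB, hB'⟩ := key eb fun r hr => hR (by
    rw [Finset.mem_coe] at hr ⊢; exact Finset.mem_union_left _ (Finset.mem_union_right _ hr))
  refine ⟨A, B, fun e he => ?_, ?_, hA', hB'⟩
  · have hp : pairs A B ζ = (words S φ ζ).map (Prod.map (PresentedGroup.mk R) (PresentedGroup.mk R)) := by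
      rw [words, pairs_map, ← funext hA', ← funext hB']
    rw [hp, List.mem_map] at he
    obtain ⟨d, hd, rfl⟩ := he
    have h1 : PresentedGroup.mk R (d.1 * d.2⁻¹) = 1 := PresentedGroup.one_of_mem (hR (by
      rw [base, Finset.mem_coe]
      exact Finset.mem_union_right _ (List.mem_toFinset.2 (List.mem_map.2 ⟨d, hd, rfl⟩))))
    rw [map_mul, map_inv, mul_inv_eq_one] at h1
    exact h1
  · rw [eq_top_iff, ← PresentedGroup.closure_range_of, Subgroup.closure_le]
    rintro _ ⟨k, rfl⟩
    rcases cases_six k with ⟨j, rfl⟩ | ⟨j, rfl⟩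
    · exact Subgroup.mem_sup_left ⟨_, hA j⟩
    · exact Subgroup.mem_sup_right ⟨_, hB j⟩

/-- Images of the generators in `Sp₄`. -/
noncomputable def gens : Fin 6 → symplecticGroup (Fin 2) F :=
  Fin.append (fun j => mA (φ (PresentedGroup.of j))) (fun j => mB (φ (PresentedGroup.of j)))

theorem lift_ea (w : FreeGroup (Fin 3)) :
    FreeGroup.lift (gens S φ) (FreeGroup.map ea w) = mA (φ (PresentedGroup.mk _ w)) := by
  have : (FreeGroup.lift (gens S φ)).comp (FreeGroup.map ea) =
      mA.comp (φ.toMonoidHom.comp (PresentedGroup.mk (↑S : Set (FreeGroup (Fin 3))))) :=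
    FreeGroup.ext_hom _ _ fun j => by simp [gens, ea, PresentedGroup.of]
  exact DFunLike.congr_fun this w

theorem lift_eb (w : FreeGroup (Fin 3)) :
    FreeGroup.lift (gens S φ) (FreeGroup.map eb w) = mB (φ (PresentedGroup.mk _ w)) := by
  have : (FreeGroup.lift (gens S φ)).comp (FreeGroup.map eb) =
      mB.comp (φ.toMonoidHom.comp (PresentedGroup.mk (↑S : Set (FreeGroup (Fin 3))))) :=
    FreeGroup.ext_hom _ _ fun j => by
      simp only [MonoidHom.comp_apply, FreeGroup.map.of, FreeGroup.lift_apply_of, gens, eb, Fin.append_right]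
      rfl
  exact DFunLike.congr_fun this w

theorem gens_kill : ∀ r ∈ base S φ ζ, FreeGroup.lift (gens S φ) r = 1 := by
  classical
  intro r hr
  simp only [base, Finset.mem_union, Finset.mem_image, List.mem_toFinset, List.mem_map] at hr
  rcases hr with (⟨w, hw, rfl⟩ | ⟨w, hw, rfl⟩) | ⟨d, hd, rfl⟩
  · rw [lift_ea, PresentedGroup.one_of_mem (Finset.mem_coe.2 hw), map_one, map_one]
  · rw [lift_eb, PresentedGroup.one_of_mem (Finset.mem_coe.2 hw), map_one, map_one]
  · rw [map_mul, map_inv, mul_inv_eq_one]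
    refine model_sys ζ (Prod.map (FreeGroup.lift (gens S φ)) (FreeGroup.lift (gens S φ)) d) ?_
    have e : pairs (fun g => FreeGroup.lift (gens S φ) (FreeGroup.map ea (rep S φ g)))
        (fun g => FreeGroup.lift (gens S φ) (FreeGroup.map eb (rep S φ g))) ζ = pairs mA mB ζ := by
      simp only [lift_ea, lift_eb, rep_spec]
    rw [← e, ← pairs_map]
    exact List.mem_map_of_mem hd

variable [Fintype F] (hgen : ∀ z : Fˣ, ∃ m : ℕ, z = ζ ^ m)
include φ hgen

/-- The presentation of `Sp₄`. -/
theorem exists_sp_equiv :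
    ∃ e : PresentedGroup (↑(base S φ ζ) : Set (FreeGroup (Fin 6))) ≃* symplecticGroup (Fin 2) F,
      ∀ w, e (PresentedGroup.mk _ w) = FreeGroup.lift (gens S φ) w := by
  obtain ⟨A, B, hsys, htop, hA, hB⟩ := exists_copies S φ ζ (R := ↑(base S φ ζ)) subset_rfl
  obtain ⟨hfin, hcard⟩ := card_bound hsys hgen htop
  let π := PresentedGroup.toGroup (rels := (↑(base S φ ζ) : Set (FreeGroup (Fin 6)))) (f := gens S φ)
    fun r hr => gens_kill S φ ζ r hr
  have hπ : ∀ w, π (PresentedGroup.mk _ w) = FreeGroup.lift (gens S φ) w := fun _ => rfl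
  have hsurj : Function.Surjective π := by
    rw [← MonoidHom.range_eq_top, eq_top_iff, ← model_top]
    refine sup_le ?_ ?_
    · rintro _ ⟨g, rfl⟩; exact ⟨A g, by rw [hA, hπ, lift_ea, rep_spec]⟩
    · rintro _ ⟨g, rfl⟩; exact ⟨B g, by rw [hB, hπ, lift_eb, rep_spec]⟩
  have hle : Nat.card (PresentedGroup (↑(base S φ ζ) : Set (FreeGroup (Fin 6)))) ≤
      Nat.card (symplecticGroup (Fin 2) F) := by
    rw [SympSub.card_symplecticGroup, SympSub.spOrder, Finset.prod_range_succ, Finset.prod_range_one,
      ← mul_assoc]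
    exact hcard
  exact ⟨MulEquiv.ofBijective π (hsurj.bijective_of_nat_card_le hle), hπ⟩

omit [Fintype F] φ hgen in
theorem center_eq {g : symplecticGroup (Fin 2) F} (hg : g ∈ Subgroup.center (symplecticGroup (Fin 2) F)) :
    g = 1 ∨ g = mA (D (-1)) := by
  obtain ⟨a, ha, hga⟩ := Linear.Symp.center_scalar hg
  rcases sq_eq_one_iff.1 ha with rfl | rfl
  · exact Or.inl (Linear.Symp.sp_ext fun v => by rw [hga, Linear.Symp.app_one, one_smul])
  · refine Or.inr (Linear.Symp.sp_ext fun v => ?_)
    rw [hga]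
    show _ = (mA (D (-1)) : symplecticGroup (Fin 2) F).1 *ᵥ v
    rw [mA_val, D_val]
    funext i
    rcases i with i | i <;> fin_cases i <;>
      simp [fromBlocks_mulVec, Matrix.mulVec, dotProduct, Fin.sum_univ_two, inv_neg]

omit [Fintype F] φ hgen in
theorem neg_one_central : mA (D (-1)) ∈ Subgroup.center (symplecticGroup (Fin 2) F) := by
  rw [Linear.Symp.mem_center_iff]
  intro v
  refine ⟨-1, ?_⟩
  show (mA (D (-1)) : symplecticGroup (Fin 2) F).1 *ᵥ v = _
  rw [mA_val, D_val]
  funext i
  rcases i with i | i <;> fin_cases i <;>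
    simp [fromBlocks_mulVec, Matrix.mulVec, dotProduct, Fin.sum_univ_two, inv_neg]

/-- The presentation of `PSp₄`. -/
theorem exists_psp_equiv : ∃ R : Finset (FreeGroup (Fin 6)), R.card ≤ S.card + S.card + 15 ∧
    Nonempty (PresentedGroup (↑R : Set (FreeGroup (Fin 6))) ≃* Cfsg.PSp 2 F) := by
  classical
  obtain ⟨e, he⟩ := exists_sp_equiv S φ ζ hgen
  set x := FreeGroup.map ea (rep S φ (D (-1))) with hx
  refine ⟨insert x (base S φ ζ), (Finset.card_insert_le _ _).trans (Nat.succ_le_succ (card_base S φ ζ)), ?_⟩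
  set R : Set (FreeGroup (Fin 6)) := ↑(insert x (base S φ ζ))
  let q : symplecticGroup (Fin 2) F →* Cfsg.PSp 2 F := QuotientGroup.mk' _
  have hlift : FreeGroup.lift (fun k => q (gens S φ k)) = q.comp (FreeGroup.lift (gens S φ)) :=
    FreeGroup.ext_hom _ _ fun k => by simp
  let π : PresentedGroup R →* Cfsg.PSp 2 F :=
    PresentedGroup.toGroup (f := fun k => q (gens S φ k)) fun r hr => by
      rw [hlift, MonoidHom.comp_apply]
      rcases Finset.mem_insert.1 (Finset.mem_coe.1 hr) with rfl | hr
      · rw [hx, lift_ea, rep_spec]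
        exact (QuotientGroup.eq_one_iff _).2 neg_one_central
      · rw [gens_kill S φ ζ r hr, map_one]
  let η : PresentedGroup (↑(base S φ ζ) : Set (FreeGroup (Fin 6))) →* PresentedGroup R :=
    PresentedGroup.toGroup (f := fun k => (PresentedGroup.of k : PresentedGroup R)) fun r hr => by
      rw [show FreeGroup.lift (fun k => (PresentedGroup.of k : PresentedGroup R)) = PresentedGroup.mk R from
        FreeGroup.ext_hom _ _ fun k => by simp [PresentedGroup.of]]
      exact PresentedGroup.one_of_mem (Finset.mem_coe.2 (Finset.mem_insert_of_mem (Finset.mem_coe.1 hr)))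
  have hη : ∀ w, η (PresentedGroup.mk _ w) = PresentedGroup.mk R w := fun w =>
    DFunLike.congr_fun (show FreeGroup.lift (fun k => (PresentedGroup.of k : PresentedGroup R)) =
      PresentedGroup.mk R from FreeGroup.ext_hom _ _ fun k => by simp [PresentedGroup.of]) w
  let ρ : symplecticGroup (Fin 2) F →* PresentedGroup R := η.comp e.symm.toMonoidHom
  have hρ : ∀ w, ρ (FreeGroup.lift (gens S φ) w) = PresentedGroup.mk R w := fun w => by
    rw [← he]; simp [ρ, hη]
  have hker : Subgroup.center (symplecticGroup (Fin 2) F) ≤ ρ.ker := fun g hg => by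
    rw [MonoidHom.mem_ker]
    rcases center_eq hg with rfl | rfl
    · exact map_one ρ
    · rw [← rep_spec S φ (D (-1)), ← lift_ea, hρ]
      exact PresentedGroup.one_of_mem (Finset.mem_coe.2 (Finset.mem_insert_self _ _))
  have hπ : ∀ w, π (PresentedGroup.mk R w) = q (FreeGroup.lift (gens S φ) w) := fun w =>
    DFunLike.congr_fun hlift w
  refine ⟨MonoidHom.toMulEquiv π (QuotientGroup.lift _ ρ hker) ?_ ?_⟩
  · refine PresentedGroup.ext fun k => ?_
    show QuotientGroup.lift _ ρ hker (π (PresentedGroup.mk R (FreeGroup.of k))) = _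
    rw [hπ]
    exact hρ _
  · refine MonoidHom.ext fun y => ?_
    obtain ⟨g, rfl⟩ := QuotientGroup.mk_surjective y
    show π (ρ g) = q g
    obtain ⟨y, rfl⟩ := e.surjective g
    induction y using PresentedGroup.induction_on with
    | _ w => rw [he, hρ, hπ]

end

end Cfsg.Agent.Sp4Pres
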