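import Cfsg.Agent.Sp4Pres.Torus

/-!
Type `C₂`: Bruhat cells bound the order by that of `Sp₄`.
-/

set_option autoImplicit false

namespace Cfsg.Agent.Sp4Pres

open Matrix Cfsg.Agent.Chev

variable {F : Type*} [Field F] [Finite F] {G : Type*} [Group G]
variable {A B : SpecialLinearGroup (Fin 2) F →* G} {ζ : Fˣ}

variable (A B) in
/-- The abelian radical of the first parabolic. -/
def RR (r s u : F) : G := xb B r * xc A B s * xd A B u

variable (A B) in
/-- The unipotent elements. -/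
def UU (t r s u : F) : G := xa A t * RR A B r s u

variable (A B) in
/-- The Borel subgroup. -/
def InB (g : G) : Prop := ∃ t r s u z w, g = UU A B t r s u * tau A B z w

variable (h : Sys A B ζ) (hgen : ∀ z : Fˣ, ∃ m : ℕ, z = ζ ^ m)

local notation "NA" => A (RankOne.weyl : SpecialLinearGroup (Fin 2) F)
local notation "NB" => B (RankOne.weyl : SpecialLinearGroup (Fin 2) F)

theorem tau_one : tau A B 1 1 = 1 := by simp [tau]

theorem inB_one : InB A B 1 :=
  ⟨0, 0, 0, 0, 1, 1, by simp [UU, RR, tau_one, xa_zero, xb_zero, xc_zero, xd_zero]⟩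

theorem inB_xa (t : F) : InB A B (xa A t) :=
  ⟨t, 0, 0, 0, 1, 1, by simp [UU, RR, tau_one, xb_zero, xc_zero, xd_zero]⟩

theorem inB_xb (t : F) : InB A B (xb B t) :=
  ⟨0, t, 0, 0, 1, 1, by simp [UU, RR, tau_one, xa_zero, xc_zero, xd_zero]⟩

theorem inB_xc (t : F) : InB A B (xc A B t) :=
  ⟨0, 0, t, 0, 1, 1, by simp [UU, RR, tau_one, xa_zero, xb_zero, xd_zero]⟩

theorem inB_xd (t : F) : InB A B (xd A B t) :=
  ⟨0, 0, 0, t, 1, 1, by simp [UU, RR, tau_one, xa_zero, xb_zero, xc_zero]⟩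

theorem inB_tau (z w : Fˣ) : InB A B (tau A B z w) :=
  ⟨0, 0, 0, 0, z, w, by simp [UU, RR, xa_zero, xb_zero, xc_zero, xd_zero]⟩

include h hgen

theorem RR_mul (r s u r' s' u' : F) :
    RR A B r s u * RR A B r' s' u' = RR A B (r + r') (s + s') (u + u') := by
  simp only [RR, xb_add, xc_add, xd_add]
  calc xb B r * xc A B s * xd A B u * (xb B r' * xc A B s' * xd A B u')
      = xb B r * xc A B s * (xd A B u * xb B r') * xc A B s' * xd A B u' := by group
    _ = xb B r * (xc A B s * xb B r') * (xd A B u * xc A B s') * xd A B u' := by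
          rw [← (comm_bd h hgen _ _).eq]; group
    _ = _ := by rw [← (comm_bc h hgen _ _).eq, ← (comm_cd h hgen _ _).eq]; group

theorem xa_RR (t r s u : F) :
    cj (xa A t) (RR A B r s u) = RR A B r (s - t * r) (u + t ^ 2 * r - 2 * t * s) := by
  have e1 : cj (xa A t) (xb B r) = RR A B r (-t * r) (t ^ 2 * r) := rel_ab h hgen t r
  have e2 : cj (xa A t) (xc A B s) = RR A B 0 s (-2 * t * s) := by
    rw [rel_ac h hgen, RR, xb_zero, one_mul]
  have e3 : cj (xa A t) (xd A B u) = RR A B 0 0 u := by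
    rw [cj_def, (comm_ad h hgen t u).eq, mul_inv_cancel_right, RR, xb_zero, xc_zero, one_mul, one_mul]
  rw [RR, map_mul, map_mul, e1, e2, e3, RR_mul h hgen, RR_mul h hgen]
  congr 1 <;> ring

theorem UU_mul (t r s u t' r' s' u' : F) : ∃ t'' r'' s'' u'',
    UU A B t r s u * UU A B t' r' s' u' = UU A B t'' r'' s'' u'' := by
  refine ⟨t + t', r + r', s - -t' * r + s', u + (-t') ^ 2 * r - 2 * -t' * s + u', ?_⟩
  rw [UU, UU, UU, ← RR_mul h hgen, ← xa_RR h hgen, xa_add, cj_def]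
  have : xa A t' * xa A (-t') = 1 := by rw [← xa_add, add_neg_cancel, xa_zero]
  rw [show (xa A (-t'))⁻¹ = xa A t' from inv_eq_of_mul_eq_one_left this]
  calc xa A t * RR A B r s u * (xa A t' * RR A B r' s' u')
      = xa A t * (xa A t' * xa A (-t')) * RR A B r s u * xa A t' * RR A B r' s' u' := by
        rw [this]; group
    _ = _ := by group

theorem tau_UU (z w : Fˣ) (t r s u : F) :
    ∃ t' r' s' u', cj (tau A B z w) (UU A B t r s u) = UU A B t' r' s' u' := by
  rw [UU, RR, map_mul, map_mul, map_mul, tau_xa h hgen, tau_xb h hgen, tau_xc h hgen, tau_xd h hgen]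
  exact ⟨_, _, _, _, rfl⟩

theorem InB.mul {g g' : G} (hg : InB A B g) (hg' : InB A B g') : InB A B (g * g') := by
  obtain ⟨t, r, s, u, z, w, rfl⟩ := hg
  obtain ⟨t', r', s', u', z', w', rfl⟩ := hg'
  obtain ⟨t'', r'', s'', u'', e⟩ := tau_UU h hgen z w t' r' s' u'
  obtain ⟨a, b, c, d, e'⟩ := UU_mul h hgen t r s u t'' r'' s'' u''
  refine ⟨a, b, c, d, z * z', w * w', ?_⟩
  rw [← e', ← e, ← tau_mul h hgen, cj_def]
  group

theorem tau_inv (z w : Fˣ) : (tau A B z w)⁻¹ = tau A B z⁻¹ w⁻¹ :=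
  inv_eq_of_mul_eq_one_right (by rw [tau_mul h hgen, mul_inv_cancel, mul_inv_cancel, tau_one])

theorem InB.conj_tau {g : G} (hg : InB A B g) (z w : Fˣ) : InB A B (cj (tau A B z w) g) := by
  rw [cj_def, tau_inv h hgen]
  exact ((inB_tau z w).mul h hgen hg).mul h hgen (inB_tau _ _)

omit h hgen in
theorem NA_inv : (NA)⁻¹ = tau A B (-1) 1 * NA := by
  refine inv_eq_of_mul_eq_one_left ?_
  simp only [tau, map_one, mul_one]
  rw [mul_assoc, ← map_mul A, N_sq, ← map_mul, ← map_mul]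
  simp

omit h hgen in
theorem NB_inv : (NB)⁻¹ = tau A B 1 (-1) * NB := by
  refine inv_eq_of_mul_eq_one_left ?_
  simp only [tau, map_one, one_mul]
  rw [mul_assoc, ← map_mul B, N_sq, ← map_mul, ← map_mul]
  simp

theorem NA_xd (t : F) : cj (NA) (xd A B t) = xb B t := by
  have e : (NA) * NA = tau A B (-1) 1 := by simp [tau, ← map_mul, N_sq]
  rw [show xd A B t = cj (NA) (xb B t) from rfl, cj_cj, e, tau_xb h hgen]
  simp

theorem NB_xc (t : F) : cj (NB) (xc A B t) = xa A (-t) := by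
  have e : (NB) * NB = tau A B 1 (-1) := by simp [tau, ← map_mul, N_sq]
  rw [show xc A B t = cj (NB) (xa A t) from rfl, cj_cj, e, tau_xa h hgen]
  simp

theorem NAi_xb (t : F) : ∃ t', cj (NA)⁻¹ (xb B t) = xd A B t' := by
  rw [NA_inv, ← cj_cj, show cj (NA) (xb B t) = xd A B t from rfl, tau_xd h hgen]
  exact ⟨_, rfl⟩

theorem NAi_xc (t : F) : ∃ t', cj (NA)⁻¹ (xc A B t) = xc A B t' := by
  rw [NA_inv, ← cj_cj, Na_xc h hgen, tau_xc h hgen]
  exact ⟨_, rfl⟩

theorem NAi_xd (t : F) : ∃ t', cj (NA)⁻¹ (xd A B t) = xb B t' := by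
  rw [NA_inv, ← cj_cj, NA_xd h hgen, tau_xb h hgen]
  exact ⟨_, rfl⟩

theorem NBi_xa (t : F) : ∃ t', cj (NB)⁻¹ (xa A t) = xc A B t' := by
  rw [NB_inv, ← cj_cj, show cj (NB) (xa A t) = xc A B t from rfl, tau_xc h hgen]
  exact ⟨_, rfl⟩

theorem NBi_xc (t : F) : ∃ t', cj (NB)⁻¹ (xc A B t) = xa A t' := by
  rw [NB_inv, ← cj_cj, NB_xc h hgen, tau_xa h hgen]
  exact ⟨_, rfl⟩

theorem NBi_xd (t : F) : ∃ t', cj (NB)⁻¹ (xd A B t) = xd A B t' := by
  rw [NB_inv, ← cj_cj, Nb_xd h hgen, tau_xd h hgen]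
  exact ⟨_, rfl⟩

/-- Elements of the Borel subgroup, with the part moved by `NA` split off. -/
theorem split_A {g : G} (hg : InB A B g) :
    (∃ t r, InB A B (cj (NA) r) ∧ InB A B (cj (NA)⁻¹ r) ∧ g = xa A t * r) ∧
      ∃ t r, InB A B (cj (NA) r) ∧ g = r * xa A t := by
  obtain ⟨t, r, s, u, z, w, rfl⟩ := hg
  have hR : ∀ r s u z w, InB A B (cj (NA) (RR A B r s u * tau A B z w)) := by
    intro r s u z w
    rw [RR, map_mul, map_mul, map_mul, show cj (NA) (xb B r) = xd A B r from rfl, Na_xc h hgen,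
      NA_xd h hgen, Na_tau h hgen]
    exact (((inB_xd _).mul h hgen (inB_xc _)).mul h hgen (inB_xb _)).mul h hgen (inB_tau _ _)
  refine ⟨⟨t, RR A B r s u * tau A B z w, hR _ _ _ _ _, ?_, by rw [UU, mul_assoc]⟩,
    (z : F)⁻¹ ^ 2 * (w : F) * t, cj (xa A t) (RR A B r s u) * tau A B z w, ?_, ?_⟩
  · rw [NA_inv, ← cj_cj]
    exact (hR _ _ _ _ _).conj_tau h hgen _ _
  · rw [xa_RR h hgen]
    exact hR _ _ _ _ _
  · have e : cj (tau A B z w) (xa A ((z : F)⁻¹ ^ 2 * (w : F) * t)) = xa A t := by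
      rw [tau_xa h hgen]; congr 1; field_simp
    rw [cj_def] at e
    rw [UU, cj_def]
    conv_rhs =>
      rw [mul_assoc, show tau A B z w * xa A ((z : F)⁻¹ ^ 2 * (w : F) * t) = xa A t * tau A B z w from
        mul_inv_eq_iff_eq_mul.1 e]
    group

/-- Elements of the Borel subgroup, with the part moved by `NB` split off. -/
theorem split_B {g : G} (hg : InB A B g) :
    (∃ t r, InB A B (cj (NB) r) ∧ InB A B (cj (NB)⁻¹ r) ∧ g = xb B t * r) ∧
      ∃ t r, InB A B (cj (NB) r) ∧ g = r * xb B t := by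
  obtain ⟨t, r, s, u, z, w, rfl⟩ := hg
  have hR : ∀ t s u z w, InB A B (cj (NB) (UU A B t 0 s u * tau A B z w)) := by
    intro t s u z w
    rw [UU, RR, xb_zero, one_mul, map_mul, map_mul, map_mul, show cj (NB) (xa A t) = xc A B t from rfl,
      NB_xc h hgen, Nb_xd h hgen, Nb_tau h hgen]
    exact ((inB_xc _).mul h hgen ((inB_xa _).mul h hgen (inB_xd _))).mul h hgen (inB_tau _ _)
  have e1 : UU A B t r s u = xb B r * UU A B t 0 (s - t * r) (u - t ^ 2 * r) := by
    have hx : RR A B r 0 0 = xb B r := by simp [RR, xc_zero, xd_zero]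
    rw [UU, UU, ← hx]
    have hc : RR A B r 0 0 * xa A t = xa A t * cj (xa A (-t)) (RR A B r 0 0) := by
      have hi : xa A t * xa A (-t) = 1 := by rw [← xa_add, add_neg_cancel, xa_zero]
      rw [cj_def, show (xa A (-t))⁻¹ = xa A t from inv_eq_of_mul_eq_one_left hi, ← mul_assoc,
        ← mul_assoc, hi, one_mul]
    rw [← mul_assoc, hc, xa_RR h hgen, mul_assoc, RR_mul h hgen]
    congr 2 <;> ring
  have e2 : UU A B t r s u = UU A B t 0 s u * xb B r := by
    have hx : RR A B r 0 0 = xb B r := by simp [RR, xc_zero, xd_zero]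
    rw [UU, UU, ← hx, mul_assoc, RR_mul h hgen]
    congr 2 <;> ring
  refine ⟨⟨r, UU A B t 0 (s - t * r) (u - t ^ 2 * r) * tau A B z w, hR _ _ _ _ _, ?_, ?_⟩,
    (w : F)⁻¹ ^ 2 * (z : F) ^ 2 * r, UU A B t 0 s u * tau A B z w, hR _ _ _ _ _, ?_⟩
  · rw [NB_inv, ← cj_cj]
    exact (hR _ _ _ _ _).conj_tau h hgen _ _
  · rw [e1, mul_assoc]
  · have e : cj (tau A B z w) (xb B ((w : F)⁻¹ ^ 2 * (z : F) ^ 2 * r)) = xb B r := by
      rw [tau_xb h hgen]; congr 1; field_simp
    rw [cj_def] at e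
    rw [e2]
    conv_rhs =>
      rw [mul_assoc, show tau A B z w * xb B ((w : F)⁻¹ ^ 2 * (z : F) ^ 2 * r) = xb B r * tau A B z w from
        mul_inv_eq_iff_eq_mul.1 e]
    group

omit h hgen

variable (A B) in
/-- Left cosets in the double coset of `n` are covered by `rep`. -/
def Covered {C : Type*} (rep : C → G) (n : G) : Prop :=
  ∀ b, InB A B b → ∃ c b', InB A B b' ∧ b * n = rep c * b'

include h hgen

theorem covered_one : Covered A B (fun _ : Unit => (1 : G)) 1 :=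
  fun b hb => ⟨(), b, hb, by simp⟩

theorem covered_A {C : Type*} {rep : C → G} {n : G} (hn : Covered A B rep n) :
    Covered A B (fun c : F × C => xa A c.1 * NA * rep c.2) (NA * n) := fun b hb => by
  obtain ⟨⟨t, r, -, hr, rfl⟩, -⟩ := split_A h hgen hb
  obtain ⟨c, b', hb', e⟩ := hn _ hr
  refine ⟨(t, c), b', hb', ?_⟩
  calc xa A t * r * (NA * n) = xa A t * NA * (cj (NA)⁻¹ r * n) := by rw [cj_def]; group
    _ = _ := by rw [e]; group

theorem covered_B {C : Type*} {rep : C → G} {n : G} (hn : Covered A B rep n) :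
    Covered A B (fun c : F × C => xb B c.1 * NB * rep c.2) (NB * n) := fun b hb => by
  obtain ⟨⟨t, r, -, hr, rfl⟩, -⟩ := split_B h hgen hb
  obtain ⟨c, b', hb', e⟩ := hn _ hr
  refine ⟨(t, c), b', hb', ?_⟩
  calc xb B t * r * (NB * n) = xb B t * NB * (cj (NB)⁻¹ r * n) := by rw [cj_def]; group
    _ = _ := by rw [e]; group

omit h hgen

variable (A B) in
/-- The eight Weyl representatives. -/
def IsN (n : G) : Prop :=
  n = 1 ∨ n = NA ∨ n = NB ∨ n = NA * NB ∨ n = NB * NA ∨ n = NA * (NB * NA) ∨ n = NB * (NA * NB) ∨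
    n = NA * (NB * (NA * NB))

variable (A B) in
/-- The union of the double cosets. -/
def InS (g : G) : Prop := ∃ n b b', IsN A B n ∧ InB A B b ∧ InB A B b' ∧ g = b * n * b'

include h hgen

theorem stepA {n : G} (hn : IsN A B n) (hn' : IsN A B (NA * n))
    (hx : ∀ t, InB A B (cj n⁻¹ (xa A t))) (t : F) :
    InS A B (NA * xa A t * n) ∧ InS A B (NA * xa A t * (NA * n)) := by
  constructor
  · exact ⟨NA * n, 1, _, hn', inB_one, hx t, by rw [cj_def]; group⟩
  · rcases eq_or_ne t 0 with rfl | ht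
    · refine ⟨n, tau A B (-1) 1, 1, hn, inB_tau _ _, inB_one, ?_⟩
      simp only [xa_zero, mul_one, tau, map_one]
      rw [← mul_assoc, ← map_mul, N_sq]
    · refine ⟨NA * n, xa A (-t⁻¹) * tau A B (Units.mk0 (-t⁻¹) (by simpa using ht)) 1, _, hn',
        (inB_xa _).mul h hgen (inB_tau _ _), hx (-t⁻¹), ?_⟩
      simp only [tau, map_one, mul_one]
      rw [show NA * xa A t * (NA * n) = A (N * U t * N) * n by rw [map_mul, map_mul, xa]; group,
        N_U_N ht, map_mul, map_mul, map_mul, cj_def, xa]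
      group

theorem stepB {n : G} (hn : IsN A B n) (hn' : IsN A B (NB * n))
    (hx : ∀ t, InB A B (cj n⁻¹ (xb B t))) (t : F) :
    InS A B (NB * xb B t * n) ∧ InS A B (NB * xb B t * (NB * n)) := by
  constructor
  · exact ⟨NB * n, 1, _, hn', inB_one, hx t, by rw [cj_def]; group⟩
  · rcases eq_or_ne t 0 with rfl | ht
    · refine ⟨n, tau A B 1 (-1), 1, hn, inB_tau _ _, inB_one, ?_⟩
      simp only [xb_zero, mul_one, tau, map_one, one_mul]
      rw [← mul_assoc, ← map_mul, N_sq]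
    · refine ⟨NB * n, xb B (-t⁻¹) * tau A B 1 (Units.mk0 (-t⁻¹) (by simpa using ht)), _, hn',
        (inB_xb _).mul h hgen (inB_tau _ _), hx (-t⁻¹), ?_⟩
      simp only [tau, map_one, one_mul]
      rw [show NB * xb B t * (NB * n) = B (N * U t * N) * n by rw [map_mul, map_mul, xb]; group,
        N_U_N ht, map_mul, map_mul, map_mul, cj_def, xb]
      group

theorem braid : NA * (NB * (NA * NB)) = NB * (NA * (NB * NA)) := by
  have := h (A N * B N * (A N * B N), B N * A N * (B N * A N)) (by simp [pairs])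
  simpa [mul_assoc] using this

theorem NA_step {n : G} (hn : IsN A B n) (t : F) : InS A B (NA * xa A t * n) := by
  have x1 : ∀ t, InB A B (cj (1 : G)⁻¹ (xa A t)) := fun t => by simpa [cj_def] using inB_xa t
  have x2 : ∀ t, InB A B (cj (NB)⁻¹ (xa A t)) := fun t => by
    obtain ⟨a, e⟩ := NBi_xa h hgen t; rw [e]; exact inB_xc a
  have x3 : ∀ t, InB A B (cj (NB * NA)⁻¹ (xa A t)) := fun t => by
    rw [_root_.mul_inv_rev, ← cj_cj]
    obtain ⟨a, e⟩ := NBi_xa h hgen t; rw [e]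
    obtain ⟨b, e'⟩ := NAi_xc h hgen a; rw [e']; exact inB_xc b
  have x4 : ∀ t, InB A B (cj (NB * (NA * NB))⁻¹ (xa A t)) := fun t => by
    rw [_root_.mul_inv_rev, _root_.mul_inv_rev, ← cj_cj, ← cj_cj]
    obtain ⟨a, e⟩ := NBi_xa h hgen t; rw [e]
    obtain ⟨b, e'⟩ := NAi_xc h hgen a; rw [e']
    obtain ⟨c, e''⟩ := NBi_xc h hgen b; rw [e'']; exact inB_xa c
  have s1 := stepA h hgen (n := 1) (by simp [IsN]) (by simp [IsN]) x1 t
  have s2 := stepA h hgen (n := NB) (by simp [IsN]) (by simp [IsN]) x2 t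
  have s3 := stepA h hgen (n := NB * NA) (by simp [IsN]) (by simp [IsN]) x3 t
  have s4 := stepA h hgen (n := NB * (NA * NB)) (by simp [IsN]) (by simp [IsN]) x4 t
  simp only [mul_one] at s1
  rcases hn with rfl | rfl | rfl | rfl | rfl | rfl | rfl | rfl
  exacts [by simpa only [mul_one] using s1.1, s1.2, s2.1, s2.2, s3.1, s3.2, s4.1, s4.2]

theorem NB_step {n : G} (hn : IsN A B n) (t : F) : InS A B (NB * xb B t * n) := by
  have x1 : ∀ t, InB A B (cj (1 : G)⁻¹ (xb B t)) := fun t => by simpa [cj_def] using inB_xb t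
  have x2 : ∀ t, InB A B (cj (NA)⁻¹ (xb B t)) := fun t => by
    obtain ⟨a, e⟩ := NAi_xb h hgen t; rw [e]; exact inB_xd a
  have x3 : ∀ t, InB A B (cj (NA * NB)⁻¹ (xb B t)) := fun t => by
    rw [_root_.mul_inv_rev, ← cj_cj]
    obtain ⟨a, e⟩ := NAi_xb h hgen t; rw [e]
    obtain ⟨b, e'⟩ := NBi_xd h hgen a; rw [e']; exact inB_xd b
  have x4 : ∀ t, InB A B (cj (NA * (NB * NA))⁻¹ (xb B t)) := fun t => by
    rw [_root_.mul_inv_rev, _root_.mul_inv_rev, ← cj_cj, ← cj_cj]
    obtain ⟨a, e⟩ := NAi_xb h hgen t; rw [e]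
    obtain ⟨b, e'⟩ := NBi_xd h hgen a; rw [e']
    obtain ⟨c, e''⟩ := NAi_xd h hgen b; rw [e'']; exact inB_xb c
  have hb := braid h hgen
  have s1 := stepB h hgen (n := 1) (by simp [IsN]) (by simp [IsN]) x1 t
  have s2 := stepB h hgen (n := NA) (by simp [IsN]) (by simp [IsN]) x2 t
  have s3 := stepB h hgen (n := NA * NB) (by simp [IsN]) (by simp [IsN]) x3 t
  have s4 := stepB h hgen (n := NA * (NB * NA)) (by simp [IsN]) (by rw [← hb]; simp [IsN]) x4 t
  simp only [mul_one] at s1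
  rw [← hb] at s4
  rcases hn with rfl | rfl | rfl | rfl | rfl | rfl | rfl | rfl
  exacts [by simpa only [mul_one] using s1.1, s2.1, s1.2, s3.1, s2.2, s4.1, s3.2, s4.2]

theorem InS.left {g g' : G} (hg : InB A B g) (hg' : InS A B g') : InS A B (g * g') := by
  obtain ⟨n, b, b', hn, hb, hb', rfl⟩ := hg'
  exact ⟨n, g * b, b', hn, hg.mul h hgen hb, hb', by group⟩

theorem InS.right {g g' : G} (hg : InS A B g) (hg' : InB A B g') : InS A B (g * g') := by
  obtain ⟨n, b, b', hn, hb, hb', rfl⟩ := hg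
  exact ⟨n, b, b' * g', hn, hb, hb'.mul h hgen hg', by group⟩

theorem inS_all (htop : A.range ⊔ B.range = ⊤) (g : G) : InS A B g := by
  let M : Submonoid G :=
    { carrier := {x | ∀ y, InS A B y → InS A B (x * y)}
      one_mem' := fun y hy => by rwa [one_mul]
      mul_mem' := fun {a b} ha hb y hy => by rw [mul_assoc]; exact ha _ (hb y hy) }
  have hA : ∀ x, A x ∈ M := RankOne.mem_of_upper_weyl (S := M.comap A)
    (fun t y hy => hy.left h hgen (inB_xa t)) (fun y hy => by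
      obtain ⟨n, b, b', hn, hb, hb', rfl⟩ := hy
      obtain ⟨-, t, r, hr, rfl⟩ := split_A h hgen hb
      rw [show NA * (r * xa A t * n * b') = cj (NA) r * (NA * xa A t * n * b') by rw [cj_def]; group]
      exact ((NA_step h hgen hn t).right h hgen hb').left h hgen hr)
  have hB : ∀ x, B x ∈ M := RankOne.mem_of_upper_weyl (S := M.comap B)
    (fun t y hy => hy.left h hgen (inB_xb t)) (fun y hy => by
      obtain ⟨n, b, b', hn, hb, hb', rfl⟩ := hy
      obtain ⟨-, t, r, hr, rfl⟩ := split_B h hgen hb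
      rw [show NB * (r * xb B t * n * b') = cj (NB) r * (NB * xb B t * n * b') by rw [cj_def]; group]
      exact ((NB_step h hgen hn t).right h hgen hb').left h hgen hr)
  have hM : ∀ x, x ∈ M := fun x => by
    have hx : x ∈ Subgroup.closure (Set.range A ∪ Set.range B) := by
      rw [Subgroup.closure_union, ← MonoidHom.coe_range, ← MonoidHom.coe_range, Subgroup.closure_eq,
        Subgroup.closure_eq, htop]
      trivial
    rw [← Subgroup.mem_toSubmonoid, Subgroup.closure_toSubmonoid] at hx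
    refine Submonoid.closure_le.2 ?_ hx
    rintro y ((⟨x, rfl⟩ | ⟨x, rfl⟩) | hy)
    · exact hA x
    · exact hB x
    · rcases (show y⁻¹ ∈ Set.range A ∪ Set.range B from hy) with ⟨x, hx⟩ | ⟨x, hx⟩
      · rw [← inv_inv y, ← hx, ← map_inv]; exact hA _
      · rw [← inv_inv y, ← hx, ← map_inv]; exact hB _
  simpa using hM g 1 ⟨1, 1, 1, Or.inl rfl, inB_one, inB_one, by simp⟩

theorem Covered.decomp {C : Type*} {rep : C → G} {n b b' : G} (hc : Covered A B rep n)
    (hb : InB A B b) (hb' : InB A B b') : ∃ c d, InB A B d ∧ b * n * b' = rep c * d := by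
  obtain ⟨c, d, hd, e⟩ := hc b hb
  exact ⟨c, d * b', hd.mul h hgen hb', by rw [e, mul_assoc]⟩

/-- The group is finite of order at most that of `Sp₄`. -/
theorem card_bound [Fintype F] (htop : A.range ⊔ B.range = ⊤) :
    Finite G ∧ Nat.card G ≤ Fintype.card F ^ 4 * (Fintype.card F ^ 2 - 1) * (Fintype.card F ^ 4 - 1) := by
  classical
  have c1 := covered_one (A := A) (B := B) h hgen
  have ca := covered_A h hgen c1
  have cb := covered_B h hgen c1
  have cab := covered_A h hgen cb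
  have cba := covered_B h hgen ca
  have caba := covered_A h hgen cba
  have cbab := covered_B h hgen cab
  have cabab := covered_A h hgen cbab
  simp only [mul_one] at ca cb cab cba caba cbab cabab
  let f : (Unit ⊕ (F × Unit) ⊕ (F × Unit) ⊕ (F × F × Unit) ⊕ (F × F × Unit) ⊕
      (F × F × F × Unit) ⊕ (F × F × F × Unit) ⊕ (F × F × F × F × Unit)) ×
      ((F × F × F × F) × (Fˣ × Fˣ)) → G := fun x =>
    (match x.1 with
    | .inl _ => 1
    | .inr (.inl c) => xa A c.1 * NA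
    | .inr (.inr (.inl c)) => xb B c.1 * NB
    | .inr (.inr (.inr (.inl c))) => xa A c.1 * NA * (xb B c.2.1 * NB)
    | .inr (.inr (.inr (.inr (.inl c)))) => xb B c.1 * NB * (xa A c.2.1 * NA)
    | .inr (.inr (.inr (.inr (.inr (.inl c))))) =>
        xa A c.1 * NA * (xb B c.2.1 * NB * (xa A c.2.2.1 * NA))
    | .inr (.inr (.inr (.inr (.inr (.inr (.inl c)))))) =>
        xb B c.1 * NB * (xa A c.2.1 * NA * (xb B c.2.2.1 * NB))
    | .inr (.inr (.inr (.inr (.inr (.inr (.inr c)))))) =>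
        xa A c.1 * NA * (xb B c.2.1 * NB * (xa A c.2.2.1 * NA * (xb B c.2.2.2.1 * NB)))) *
      (UU A B x.2.1.1 x.2.1.2.1 x.2.1.2.2.1 x.2.1.2.2.2 * tau A B x.2.2.1 x.2.2.2)
  have hsurj : Function.Surjective f := by
    intro g
    obtain ⟨n, b, b', hn, hb, hb', rfl⟩ := inS_all h hgen htop g
    rcases hn with rfl | rfl | rfl | rfl | rfl | rfl | rfl | rfl
    · obtain ⟨c, d, ⟨t, r, s, u, z, w, rfl⟩, e⟩ := Covered.decomp h hgen c1 hb hb'
      exact ⟨(.inl c, ((t, r, s, u), (z, w))), e.symm⟩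
    · obtain ⟨c, d, ⟨t, r, s, u, z, w, rfl⟩, e⟩ := Covered.decomp h hgen ca hb hb'
      exact ⟨(.inr (.inl c), ((t, r, s, u), (z, w))), e.symm⟩
    · obtain ⟨c, d, ⟨t, r, s, u, z, w, rfl⟩, e⟩ := Covered.decomp h hgen cb hb hb'
      exact ⟨(.inr (.inr (.inl c)), ((t, r, s, u), (z, w))), e.symm⟩
    · obtain ⟨c, d, ⟨t, r, s, u, z, w, rfl⟩, e⟩ := Covered.decomp h hgen cab hb hb'
      exact ⟨(.inr (.inr (.inr (.inl c))), ((t, r, s, u), (z, w))), e.symm⟩
    · obtain ⟨c, d, ⟨t, r, s, u, z, w, rfl⟩, e⟩ := Covered.decomp h hgen cba hb hb'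
      exact ⟨(.inr (.inr (.inr (.inr (.inl c)))), ((t, r, s, u), (z, w))), e.symm⟩
    · obtain ⟨c, d, ⟨t, r, s, u, z, w, rfl⟩, e⟩ := Covered.decomp h hgen caba hb hb'
      exact ⟨(.inr (.inr (.inr (.inr (.inr (.inl c))))), ((t, r, s, u), (z, w))), e.symm⟩
    · obtain ⟨c, d, ⟨t, r, s, u, z, w, rfl⟩, e⟩ := Covered.decomp h hgen cbab hb hb'
      exact ⟨(.inr (.inr (.inr (.inr (.inr (.inr (.inl c)))))), ((t, r, s, u), (z, w))), e.symm⟩
    · obtain ⟨c, d, ⟨t, r, s, u, z, w, rfl⟩, e⟩ := Covered.decomp h hgen cabab hb hb'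
      exact ⟨(.inr (.inr (.inr (.inr (.inr (.inr (.inr c)))))), ((t, r, s, u), (z, w))), e.symm⟩
  refine ⟨Finite.of_surjective f hsurj, (Nat.card_le_card_of_surjective f hsurj).trans (le_of_eq ?_)⟩
  simp only [Nat.card_eq_fintype_card, Fintype.card_prod, Fintype.card_sum, Fintype.card_unique,
    Fintype.card_units]
  obtain ⟨k, hk⟩ : ∃ k, Fintype.card F = k + 1 := ⟨_, (Nat.succ_pred_eq_of_pos Fintype.card_pos).symm⟩
  have e2 : Fintype.card F ^ 2 - 1 = k * (k + 2) := by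
    rw [hk, show (k + 1) ^ 2 = k * (k + 2) + 1 by ring, Nat.add_sub_cancel]
  have e4 : Fintype.card F ^ 4 - 1 = k * (k + 2) * ((k + 1) ^ 2 + 1) := by
    rw [hk, show (k + 1) ^ 4 = k * (k + 2) * ((k + 1) ^ 2 + 1) + 1 by ring, Nat.add_sub_cancel]
  rw [e2, e4, hk, Nat.add_sub_cancel]
  ring

end Cfsg.Agent.Sp4Pres
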