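import Cfsg.Agent.Sp4Pres.Bound
import Cfsg.Agent.Known.SpSpan

/-!
The symplectic group in dimension four satisfies the relations and is generated by the two copies of `SL₂`.
-/

set_option autoImplicit false
set_option maxHeartbeats 1000000

namespace Cfsg.Agent.Sp4Pres

open Matrix Cfsg.Agent.Chev Cfsg.Agent.Known

variable {F : Type*} [Field F]

/-- The copy of `SL₂` for the short root. -/
abbrev mA : SpecialLinearGroup (Fin 2) F →* symplecticGroup (Fin 2) F := SpSpan.levi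

theorem mA_val (g : SpecialLinearGroup (Fin 2) F) :
    (mA g : Matrix (Fin 2 ⊕ Fin 2) (Fin 2 ⊕ Fin 2) F) =
      fromBlocks g.1 0 0 !![g.1 1 1, -g.1 1 0; -g.1 0 1, g.1 0 0] := by
  rw [SpSpan.val_levi]
  show fromBlocks g.1 0 0 (adjugate g.1)ᵀ = _
  rw [adjugate_fin_two]
  congr 1
  ext i j; fin_cases i <;> fin_cases j <;> simp

/-- The matrix of the copy of `SL₂` for the long root. -/
def bMat (g : Matrix (Fin 2) (Fin 2) F) : Matrix (Fin 2 ⊕ Fin 2) (Fin 2 ⊕ Fin 2) F :=
  fromBlocks !![1, 0; 0, g 0 0] !![0, 0; 0, g 0 1] !![0, 0; 0, g 1 0] !![1, 0; 0, g 1 1]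

theorem bMat_mem (g : SpecialLinearGroup (Fin 2) F) : bMat g.1 ∈ symplecticGroup (Fin 2) F := by
  have hd : g.1 0 0 * g.1 1 1 - g.1 0 1 * g.1 1 0 = 1 := RankOne.det_eq g
  rw [SymplecticGroup.mem_iff, bMat, Matrix.J, fromBlocks_transpose, fromBlocks_multiply, fromBlocks_multiply]
  ext (i | i) (j | j) <;> fin_cases i <;> fin_cases j <;>
    simp [Matrix.mul_apply, Fin.sum_univ_two, Matrix.vecMul, dotProduct] <;>
    first | linear_combination hd | linear_combination -hd | ring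

/-- The copy of `SL₂` for the long root. -/
def mB : SpecialLinearGroup (Fin 2) F →* symplecticGroup (Fin 2) F where
  toFun g := ⟨bMat g.1, bMat_mem g⟩
  map_one' := by
    apply Subtype.ext
    ext (i | i) (j | j) <;> fin_cases i <;> fin_cases j <;> simp [bMat]
  map_mul' g h := by
    apply Subtype.ext
    show bMat (g * h).1 = bMat g.1 * bMat h.1
    rw [RankOne.sl_mul_val]
    rw [bMat, bMat, bMat, fromBlocks_multiply]
    ext (i | i) (j | j) <;> fin_cases i <;> fin_cases j <;> simp [Matrix.mul_apply, Fin.sum_univ_two]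

theorem mB_val (g : SpecialLinearGroup (Fin 2) F) :
    (mB g : Matrix (Fin 2 ⊕ Fin 2) (Fin 2 ⊕ Fin 2) F) = bMat g.1 := rfl

theorem m_xb (t : F) : xb mB t = SpSpan.xS !![0, 0; 0, t] := by
  refine Subtype.ext ?_
  rw [xb, mB_val, SpSpan.val_xS (by ext i j; fin_cases i <;> fin_cases j <;> simp), bMat]
  ext (i | i) (j | j) <;> fin_cases i <;> fin_cases j <;> simp [RankOne.upper]

theorem m_xc (t : F) : xc mA mB t = SpSpan.xS !![0, -t; -t, 0] := by
  rw [xc, mul_inv_eq_iff_eq_mul]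
  refine Subtype.ext ?_
  rw [Submonoid.coe_mul, Submonoid.coe_mul, mB_val, mA_val,
    SpSpan.val_xS (by ext i j; fin_cases i <;> fin_cases j <;> simp), bMat, fromBlocks_multiply,
    fromBlocks_multiply]
  ext (i | i) (j | j) <;> fin_cases i <;> fin_cases j <;>
    simp [RankOne.upper, RankOne.weyl, Matrix.mul_apply, Fin.sum_univ_two]

theorem m_xd (t : F) : xd mA mB t = SpSpan.xS !![t, 0; 0, 0] := by
  rw [xd, show mB (U t) = xb mB t from rfl, m_xb, SpSpan.levi_conj _ (by ext i j; fin_cases i <;> fin_cases j <;> simp)]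
  congr 1
  ext i j
  fin_cases i <;> fin_cases j <;> simp [RankOne.weyl, Matrix.mul_apply, Fin.sum_univ_two]

theorem model_sys (ζ : Fˣ) : Sys (mA : SpecialLinearGroup (Fin 2) F →* _) mB ζ := by
  intro e he
  simp only [pairs, List.mem_cons, List.not_mem_nil, or_false] at he
  have hS : ∀ a b c : F, (!![a, b; b, c] : Matrix (Fin 2) (Fin 2) F)ᵀ = !![a, b; b, c] := fun a b c => by
    ext i j; fin_cases i <;> fin_cases j <;> simp
  rcases he with rfl | rfl | rfl | rfl | rfl | rfl | rfl | rfl | rfl | rfl | rfl | rfl | rfl | rfl <;>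
    dsimp only
  · refine Subtype.ext ?_
    simp only [Submonoid.coe_mul, mA_val, mB_val, bMat, fromBlocks_multiply]
    ext (i | i) (j | j) <;> fin_cases i <;> fin_cases j <;>
      simp [D_val, Matrix.mul_apply, Fin.sum_univ_two, mul_comm]
  · rw [mul_inv_eq_iff_eq_mul]
    refine Subtype.ext ?_
    simp only [Submonoid.coe_mul, mA_val, mB_val, bMat, fromBlocks_multiply]
    ext (i | i) (j | j) <;> fin_cases i <;> fin_cases j <;>
      simp [D_val, RankOne.upper, Matrix.mul_apply, Fin.sum_univ_two, field]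
  · rw [mul_inv_eq_iff_eq_mul]
    refine Subtype.ext ?_
    simp only [Submonoid.coe_mul, mA_val, mB_val, bMat, fromBlocks_multiply]
    ext (i | i) (j | j) <;> fin_cases i <;> fin_cases j <;>
      simp [D_val, RankOne.upper, Matrix.mul_apply, Fin.sum_univ_two, field]
  · rw [mul_inv_eq_iff_eq_mul]
    refine Subtype.ext ?_
    simp only [Submonoid.coe_mul, mA_val, mB_val, bMat, fromBlocks_multiply]
    ext (i | i) (j | j) <;> fin_cases i <;> fin_cases j <;>
      simp [D_val, RankOne.weyl, Matrix.mul_apply, Fin.sum_univ_two, field]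
  · rw [mul_inv_eq_iff_eq_mul]
    refine Subtype.ext ?_
    simp only [Submonoid.coe_mul, mA_val, mB_val, bMat, fromBlocks_multiply]
    ext (i | i) (j | j) <;> fin_cases i <;> fin_cases j <;>
      simp [D_val, RankOne.weyl, Matrix.mul_apply, Fin.sum_univ_two, field]
  · change xa mA 1 * xb mB 1 * (xa mA 1)⁻¹ = xb mB 1 * xc mA mB (-1) * xd mA mB 1
    rw [m_xb, m_xc, m_xd, xa, SpSpan.levi_conj _ (hS _ _ _), ← SpSpan.xS_add (hS _ _ _) (hS _ _ _),
      ← SpSpan.xS_add (by rw [transpose_add, hS, hS]) (hS _ _ _)]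
    congr 1
    ext i j
    fin_cases i <;> fin_cases j <;> simp [RankOne.upper, Matrix.mul_apply, Fin.sum_univ_two]
  · change xa mA 1 * xc mA mB 1 * (xa mA 1)⁻¹ = xc mA mB 1 * xd mA mB (-2)
    rw [m_xc, m_xd, xa, SpSpan.levi_conj _ (hS _ _ _), ← SpSpan.xS_add (hS _ _ _) (hS _ _ _)]
    congr 1
    ext i j
    fin_cases i <;> fin_cases j <;> simp [RankOne.upper, Matrix.mul_apply, Fin.sum_univ_two] <;> ring
  · change xa mA 1 * xd mA mB 1 = xd mA mB 1 * xa mA 1
    rw [m_xd, xa]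
    refine (SpSpan.levi_commute (hS _ _ _) ?_).eq
    ext i j
    fin_cases i <;> fin_cases j <;> simp [RankOne.upper, Matrix.mul_apply, Fin.sum_univ_two]
  · change xb mB 1 * xc mA mB 1 = xc mA mB 1 * xb mB 1
    rw [m_xb, m_xc, ← SpSpan.xS_add (hS _ _ _) (hS _ _ _), ← SpSpan.xS_add (hS _ _ _) (hS _ _ _), add_comm]
  · change xb mB 1 * xd mA mB 1 = xd mA mB 1 * xb mB 1
    rw [m_xb, m_xd, ← SpSpan.xS_add (hS _ _ _) (hS _ _ _), ← SpSpan.xS_add (hS _ _ _) (hS _ _ _), add_comm]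
  · change xc mA mB 1 * xd mA mB 1 = xd mA mB 1 * xc mA mB 1
    rw [m_xc, m_xd, ← SpSpan.xS_add (hS _ _ _) (hS _ _ _), ← SpSpan.xS_add (hS _ _ _) (hS _ _ _), add_comm]
  · change mA N * xc mA mB 1 * (mA N)⁻¹ = xc mA mB (-1)
    rw [m_xc, m_xc, SpSpan.levi_conj _ (hS _ _ _)]
    congr 1
    ext i j
    fin_cases i <;> fin_cases j <;> simp [RankOne.weyl, Matrix.mul_apply, Fin.sum_univ_two]
  · change mB N * xd mA mB 1 * (mB N)⁻¹ = xd mA mB 1
    rw [m_xd, mul_inv_eq_iff_eq_mul]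
    refine Subtype.ext ?_
    simp only [Submonoid.coe_mul, mB_val, SpSpan.val_xS (hS _ _ _), bMat, fromBlocks_multiply]
    ext (i | i) (j | j) <;> fin_cases i <;> fin_cases j <;>
      simp [RankOne.weyl, Matrix.mul_apply, Fin.sum_univ_two]
  · refine Subtype.ext ?_
    simp only [Submonoid.coe_mul, mA_val, mB_val, bMat, fromBlocks_multiply]
    ext (i | i) (j | j) <;> fin_cases i <;> fin_cases j <;>
      simp [RankOne.weyl, Matrix.mul_apply, Fin.sum_univ_two]

/-- The two copies generate. -/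
theorem model_top : (mA : SpecialLinearGroup (Fin 2) F →* _).range ⊔ mB.range = ⊤ := by
  set K := (mA : SpecialLinearGroup (Fin 2) F →* _).range ⊔ mB.range
  have ha : ∀ g, mA g ∈ K := fun g => Subgroup.mem_sup_left ⟨g, rfl⟩
  have hb : ∀ g, mB g ∈ K := fun g => Subgroup.mem_sup_right ⟨g, rfl⟩
  have hxb : ∀ t : F, xb mB t ∈ K := fun t => hb _
  have hxc : ∀ t : F, xc mA mB t ∈ K := fun t => mul_mem (mul_mem (hb _) (ha _)) (inv_mem (hb _))
  have hxd : ∀ t : F, xd mA mB t ∈ K := fun t => mul_mem (mul_mem (ha _) (hb _)) (inv_mem (ha _))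
  have hE : ∀ x : Fin 2 → F, SpSpan.Full K (Sum.elim x 0) := fun x c => by
    rw [SpSpan.tr_eq_xS]
    have hS : ∀ a b d : F, (!![a, b; b, d] : Matrix (Fin 2) (Fin 2) F)ᵀ = !![a, b; b, d] := fun a b d => by
      ext i j; fin_cases i <;> fin_cases j <;> simp
    have e : c • vecMulVec x x = !![c * x 0 ^ 2, 0; 0, 0] + !![0, c * x 0 * x 1; c * x 0 * x 1, 0] +
        !![0, 0; 0, c * x 1 ^ 2] := by
      ext i j; fin_cases i <;> fin_cases j <;> simp [vecMulVec, sq] <;> ring
    rw [e, SpSpan.xS_add (by rw [transpose_add, hS, hS]) (hS _ _ _), SpSpan.xS_add (hS _ _ _) (hS _ _ _),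
      ← m_xd, ← m_xb, ← neg_neg (c * x 0 * x 1), ← m_xc]
    exact mul_mem (mul_mem (hxd _) (hxc _)) (hxb _)
  refine SpSpan.eq_top_of_parts hE (eq_top_iff.2 fun y _ => ?_)
  have h1 : (![0, -1] : Fin 2 → F) ∈ SpSpan.parts K hE := by
    refine SpSpan.mem_parts hE (hb RankOne.weyl) _ (hE ![0, 1]) ?_ (by simp)
    funext i
    rw [mB_val]
    fin_cases i <;> simp [bMat, RankOne.weyl, fromBlocks_mulVec, Matrix.mulVec, dotProduct, Fin.sum_univ_two]
  have h0 : (![-1, 0] : Fin 2 → F) ∈ SpSpan.parts K hE := by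
    refine SpSpan.mem_parts hE (K.mul_mem (ha RankOne.weyl) (hb RankOne.weyl)) _ (hE ![0, 1]) ?_ (by simp)
    funext i
    rw [Submonoid.coe_mul, mA_val, mB_val]
    fin_cases i <;> simp [bMat, RankOne.weyl, fromBlocks_mulVec, Matrix.mulVec,
      fromBlocks_multiply, Matrix.mul_apply, dotProduct, Fin.sum_univ_two]
  have : y = (-y 0) • ![-1, 0] + (-y 1) • (![0, -1] : Fin 2 → F) := by
    funext i; fin_cases i <;> simp
  rw [this]
  exact add_mem ((SpSpan.parts K hE).smul_mem _ h0) ((SpSpan.parts K hE).smul_mem _ h1)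

end Cfsg.Agent.Sp4Pres
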