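import Cfsg.Agent.SL2Pres.Rels

/-!
Two copies of `SL₂` satisfying a few relations of type `C₂`: all parameters from parameter one.
-/

set_option autoImplicit false

namespace Cfsg.Agent.Sp4Pres

open Matrix Cfsg.Agent.Chev

variable {F : Type*} [Field F] {G : Type*} [Group G]

local notation "SL₂" => SpecialLinearGroup (Fin 2) F

/-- Upper unitriangular matrix. -/
abbrev U (t : F) : SL₂ := RankOne.upper t

/-- Weyl element. -/
abbrev N : SL₂ := RankOne.weyl

/-- Diagonal matrices. -/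
def D : Fˣ →* SL₂ where
  toFun z := SL2Pres.diag (z : F) z.ne_zero
  map_one' := by
    apply Subtype.ext
    ext i j; fin_cases i <;> fin_cases j <;> simp [SL2Pres.diag]
  map_mul' a b := by
    apply Subtype.ext
    rw [RankOne.sl_mul_val]
    ext i j
    fin_cases i <;> fin_cases j <;> simp [SL2Pres.diag, Matrix.mul_apply, Fin.sum_univ_two, mul_comm]

theorem D_val (z : Fˣ) : (D z).1 = !![(z : F), 0; 0, (z : F)⁻¹] := rfl

theorem D_U (z : Fˣ) (t : F) : D z * U t * (D z)⁻¹ = U ((z : F) ^ 2 * t) :=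
  SL2Pres.diag_conj_upper (z : F) z.ne_zero t

theorem N_D (z : Fˣ) : (N : SL₂) * D z * N⁻¹ = D z⁻¹ := by
  rw [mul_inv_eq_iff_eq_mul]
  apply Subtype.ext
  simp only [RankOne.sl_mul_val]
  ext i j
  fin_cases i <;> fin_cases j <;>
    simp [D_val, RankOne.weyl, Matrix.mul_apply, Fin.sum_univ_two]

theorem N_sq : (N : SL₂) * N = D (-1) := by
  apply Subtype.ext
  simp only [RankOne.sl_mul_val]
  ext i j
  fin_cases i <;> fin_cases j <;>
    simp [D_val, RankOne.weyl, Matrix.mul_apply, Fin.sum_univ_two]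

theorem N_U_N {t : F} (ht : t ≠ 0) :
    (N : SL₂) * U t * N = U (-t⁻¹) * D (Units.mk0 (-t⁻¹) (by simpa using ht)) * N * U (-t⁻¹) := by
  apply Subtype.ext
  simp only [RankOne.sl_mul_val]
  ext i j
  fin_cases i <;> fin_cases j <;>
    simp [D_val, RankOne.weyl, RankOne.upper, Matrix.mul_apply, Fin.sum_univ_two] <;> field_simp <;> ring

/-- The sides of the relations joining the two copies. -/
def pairs (A B : SL₂ → G) (ζ : Fˣ) : List (G × G) :=
  [(A (D ζ) * B (D ζ), B (D ζ) * A (D ζ)),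
   (A (D ζ) * B (U 1) * (A (D ζ))⁻¹, B (U ((ζ : F) ^ 2)⁻¹)),
   (B (D ζ) * A (U 1) * (B (D ζ))⁻¹, A (U (ζ : F)⁻¹)),
   (B N * A (D ζ) * (B N)⁻¹, A (D ζ) * B (D (ζ * ζ))),
   (A N * B (D ζ) * (A N)⁻¹, A (D ζ) * B (D ζ)),
   (A (U 1) * B (U 1) * (A (U 1))⁻¹,
      B (U 1) * (B N * A (U (-1)) * (B N)⁻¹) * (A N * B (U 1) * (A N)⁻¹)),
   (A (U 1) * (B N * A (U 1) * (B N)⁻¹) * (A (U 1))⁻¹,
      (B N * A (U 1) * (B N)⁻¹) * (A N * B (U (-2)) * (A N)⁻¹)),
   (A (U 1) * (A N * B (U 1) * (A N)⁻¹), A N * B (U 1) * (A N)⁻¹ * A (U 1)),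
   (B (U 1) * (B N * A (U 1) * (B N)⁻¹), B N * A (U 1) * (B N)⁻¹ * B (U 1)),
   (B (U 1) * (A N * B (U 1) * (A N)⁻¹), A N * B (U 1) * (A N)⁻¹ * B (U 1)),
   (B N * A (U 1) * (B N)⁻¹ * (A N * B (U 1) * (A N)⁻¹),
      A N * B (U 1) * (A N)⁻¹ * (B N * A (U 1) * (B N)⁻¹)),
   (A N * (B N * A (U 1) * (B N)⁻¹) * (A N)⁻¹, B N * A (U (-1)) * (B N)⁻¹),
   (B N * (A N * B (U 1) * (A N)⁻¹) * (B N)⁻¹, A N * B (U 1) * (A N)⁻¹),
   (A N * B N * (A N * B N), B N * A N * (B N * A N))]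

theorem pairs_map {H : Type*} [Group H] (φ : G →* H) (A B : SL₂ → G) (ζ : Fˣ) :
    (pairs A B ζ).map (Prod.map φ φ) = pairs (fun g => φ (A g)) (fun g => φ (B g)) ζ := by
  simp [pairs, map_mul, map_inv]

theorem length_pairs (A B : SL₂ → G) (ζ : Fˣ) : (pairs A B ζ).length = 14 := rfl

/-- The relations hold. -/
def Sys (A B : SL₂ →* G) (ζ : Fˣ) : Prop := ∀ e ∈ pairs A B ζ, e.1 = e.2

section

variable (A B : SpecialLinearGroup (Fin 2) F →* G)

/-- Root elements of `ε₁ - ε₂`. -/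
def xa (t : F) : G := A (U t)
/-- Root elements of `2ε₂`. -/
def xb (t : F) : G := B (U t)
/-- Root elements of `ε₁ + ε₂`. -/
def xc (t : F) : G := B N * A (U t) * (B N)⁻¹
/-- Root elements of `2ε₁`. -/
def xd (t : F) : G := A N * B (U t) * (A N)⁻¹

theorem xa_add (s t : F) : xa A (s + t) = xa A s * xa A t := by simp [xa, U, SL2Pres.upper_add]
theorem xb_add (s t : F) : xb B (s + t) = xb B s * xb B t := by simp [xb, U, SL2Pres.upper_add]
theorem xc_add (s t : F) : xc A B (s + t) = xc A B s * xc A B t := by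
  simp [xc, U, SL2Pres.upper_add]
theorem xd_add (s t : F) : xd A B (s + t) = xd A B s * xd A B t := by
  simp [xd, U, SL2Pres.upper_add]
theorem xa_zero : xa A 0 = 1 := by simp [xa, U, SL2Pres.upper_zero]
theorem xb_zero : xb B 0 = 1 := by simp [xb, U, SL2Pres.upper_zero]
theorem xc_zero : xc A B 0 = 1 := by simp [xc, U, SL2Pres.upper_zero]
theorem xd_zero : xd A B 0 = 1 := by simp [xd, U, SL2Pres.upper_zero]

end

/-- Additive predicates true at nonzero squares hold everywhere in a finite field. -/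
theorem of_squares [Finite F] {P : F → Prop} (h0 : P 0) (hadd : ∀ a b, P a → P b → P (a + b))
    (hsq : ∀ z : Fˣ, P ((z : F) ^ 2)) (t : F) : P t := by
  haveI := Fintype.ofFinite F
  have hsq' : ∀ a : F, P (a ^ 2) := fun a => by
    rcases eq_or_ne a 0 with rfl | ha
    · simpa using h0
    · exact hsq (Units.mk0 a ha)
  obtain ⟨a, b, rfl⟩ : ∃ a b : F, t = a ^ 2 + b ^ 2 := by
    by_cases h2 : ringChar F = 2
    · obtain ⟨a, rfl⟩ := FiniteField.isSquare_of_char_two h2 t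
      exact ⟨a, 0, by ring⟩
    · open Polynomial in
      obtain ⟨a, b, hab⟩ := FiniteField.exists_root_sum_quadratic (f := (X ^ 2 : F[X]))
        (g := (X ^ 2 - C t : F[X])) (degree_X_pow 2) (degree_X_pow_sub_C (by norm_num) t)
        (FiniteField.odd_card_of_char_ne_two h2)
      refine ⟨a, b, ?_⟩
      simp only [eval_pow, eval_X, eval_sub, eval_C] at hab
      linear_combination -hab
  exact hadd _ _ (hsq' a) (hsq' b)

end Cfsg.Agent.Sp4Pres
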