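import Cfsg.Agent.Sp4Pres.Sys

/-!
Type `C₂`: torus action and commutator relations for all parameters.
-/

set_option autoImplicit false

namespace Cfsg.Agent.Sp4Pres

open Matrix Cfsg.Agent.Chev

variable {F : Type*} [Field F] {G : Type*} [Group G]
variable {A B : SpecialLinearGroup (Fin 2) F →* G} {ζ : Fˣ}

/-- Conjugation as a monoid map. -/
abbrev cj (g : G) : G →* G := (MulAut.conj g).toMonoidHom

theorem cj_def (g x : G) : cj g x = g * x * g⁻¹ := rfl

theorem cj_cj (g k x : G) : cj g (cj k x) = cj (g * k) x := by simp only [cj_def]; group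

variable (A B) in
/-- The torus. -/
def tau (z w : Fˣ) : G := A (D z) * B (D w)

variable (h : Sys A B ζ) (hgen : ∀ z : Fˣ, ∃ m : ℕ, z = ζ ^ m)
include h hgen

theorem commute_AB (z w : Fˣ) : Commute (A (D z)) (B (D w)) := by
  have h0 : Commute (A (D ζ)) (B (D ζ)) := h _ (List.mem_cons_self ..)
  obtain ⟨m, rfl⟩ := hgen z
  obtain ⟨n, rfl⟩ := hgen w
  simpa using h0.pow_pow m n

theorem A_xb (z : Fˣ) (t : F) [Finite F] : cj (A (D z)) (xb B t) = xb B (((z : F) ^ 2)⁻¹ * t) := by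
  have h1 : cj (A (D ζ)) (xb B 1) = xb B (((ζ : F) ^ 2)⁻¹ * 1) := by
    rw [mul_one]; exact h (A (D ζ) * B (U 1) * (A (D ζ))⁻¹, B (U ((ζ : F) ^ 2)⁻¹)) (by simp [pairs])
  have hζ : ∀ t, cj (A (D ζ)) (xb B t) = xb B (((ζ : F) ^ 2)⁻¹ * t) := by
    refine of_squares (by simp [xb_zero]) (fun a b ha hb => ?_) fun r => ?_
    · rw [xb_add, map_mul, ha, hb, mul_add, xb_add]
    · have e : xb B ((r : F) ^ 2) = cj (B (D r)) (xb B 1) := by
        rw [cj_def, xb, xb, ← map_inv, ← map_mul, ← map_mul, D_U, mul_one]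
      rw [e, cj_cj, (commute_AB h hgen ζ r).eq, ← cj_cj, h1, cj_def, xb, ← map_inv, ← map_mul,
        ← map_mul, D_U]
      rw [mul_one, mul_comm]; rfl
  obtain ⟨m, rfl⟩ := hgen z
  induction m with
  | zero => simp
  | succ m ih =>
    rw [pow_succ', map_mul, map_mul, ← cj_cj, ih, hζ]
    congr 1
    push_cast
    rw [mul_pow, mul_inv, mul_assoc]

theorem B_xa (w : Fˣ) (t : F) [Finite F] : cj (B (D w)) (xa A t) = xa A ((w : F)⁻¹ * t) := by
  have h1 : cj (B (D ζ)) (xa A 1) = xa A ((ζ : F)⁻¹ * 1) := by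
    rw [mul_one]; exact h (B (D ζ) * A (U 1) * (B (D ζ))⁻¹, A (U (ζ : F)⁻¹)) (by simp [pairs])
  have hζ : ∀ t, cj (B (D ζ)) (xa A t) = xa A ((ζ : F)⁻¹ * t) := by
    refine of_squares (by simp [xa_zero]) (fun a b ha hb => ?_) fun r => ?_
    · rw [xa_add, map_mul, ha, hb, mul_add, xa_add]
    · have e : xa A ((r : F) ^ 2) = cj (A (D r)) (xa A 1) := by
        rw [cj_def, xa, xa, ← map_inv, ← map_mul, ← map_mul, D_U, mul_one]
      rw [e, cj_cj, ← (commute_AB h hgen r ζ).eq, ← cj_cj, h1, cj_def, xa, ← map_inv, ← map_mul,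
        ← map_mul, D_U]
      rw [mul_one, mul_comm]; rfl
  obtain ⟨m, rfl⟩ := hgen w
  induction m with
  | zero => simp
  | succ m ih =>
    rw [pow_succ', map_mul, map_mul, ← cj_cj, ih, hζ]
    congr 1
    push_cast
    rw [mul_inv, mul_assoc]

theorem tau_xa [Finite F] (z w : Fˣ) (t : F) :
    cj (tau A B z w) (xa A t) = xa A ((z : F) ^ 2 * (w : F)⁻¹ * t) := by
  rw [tau, ← cj_cj, B_xa h hgen, cj_def, xa, xa, ← map_inv, ← map_mul, ← map_mul, D_U, mul_assoc]

theorem tau_xb [Finite F] (z w : Fˣ) (t : F) :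
    cj (tau A B z w) (xb B t) = xb B ((w : F) ^ 2 * ((z : F) ^ 2)⁻¹ * t) := by
  have e : cj (B (D w)) (xb B t) = xb B ((w : F) ^ 2 * t) := by
    rw [cj_def, xb, xb, ← map_inv, ← map_mul, ← map_mul, D_U]
  rw [tau, ← cj_cj, e, A_xb h hgen]
  congr 1
  ring

theorem tau_mul (z w z' w' : Fˣ) : tau A B z w * tau A B z' w' = tau A B (z * z') (w * w') := by
  simp only [tau, map_mul]
  calc A (D z) * B (D w) * (A (D z') * B (D w'))
      = A (D z) * (B (D w) * A (D z')) * B (D w') := by group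
    _ = A (D z) * (A (D z') * B (D w)) * B (D w') := by rw [(commute_AB h hgen z' w).eq]
    _ = _ := by group

theorem Nb_tau (z w : Fˣ) : cj (B (N : SpecialLinearGroup (Fin 2) F)) (tau A B z w) = tau A B z (z * z * w⁻¹) := by
  have h1 : cj (B (N : SpecialLinearGroup (Fin 2) F)) (A (D z)) = tau A B z (z * z) := by
    obtain ⟨m, rfl⟩ := hgen z
    rw [map_pow D, map_pow A, map_pow]
    have h4 : cj (B (N : SpecialLinearGroup (Fin 2) F)) (A (D ζ)) = A (D ζ) * B (D (ζ * ζ)) :=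
      h (B (N : SpecialLinearGroup (Fin 2) F) * A (D ζ) * (B N)⁻¹, A (D ζ) * B (D (ζ * ζ))) (by simp [pairs])
    rw [h4, (commute_AB h hgen ζ (ζ * ζ)).mul_pow, tau, ← mul_pow, map_pow, map_pow, map_pow, map_pow]
  have h2 : cj (B (N : SpecialLinearGroup (Fin 2) F)) (B (D w)) = B (D w⁻¹) := by
    rw [cj_def, ← map_inv, ← map_mul, ← map_mul, N_D]
  rw [tau, map_mul, h1, h2, tau, tau, mul_assoc, ← map_mul, ← map_mul]

theorem Na_tau (z w : Fˣ) : cj (A (N : SpecialLinearGroup (Fin 2) F)) (tau A B z w) = tau A B (w * z⁻¹) w := by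
  have h1 : cj (A (N : SpecialLinearGroup (Fin 2) F)) (B (D w)) = tau A B w w := by
    obtain ⟨m, rfl⟩ := hgen w
    rw [map_pow D, map_pow B, map_pow]
    have h5 : cj (A (N : SpecialLinearGroup (Fin 2) F)) (B (D ζ)) = A (D ζ) * B (D ζ) :=
      h (A (N : SpecialLinearGroup (Fin 2) F) * B (D ζ) * (A N)⁻¹, A (D ζ) * B (D ζ)) (by simp [pairs])
    rw [h5, (commute_AB h hgen ζ ζ).mul_pow, tau, map_pow, map_pow, map_pow]
  have h2 : cj (A (N : SpecialLinearGroup (Fin 2) F)) (A (D z)) = A (D z⁻¹) := by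
    rw [cj_def, ← map_inv, ← map_mul, ← map_mul, N_D]
  rw [tau, map_mul, h1, h2, tau, tau, ← mul_assoc, ← map_mul, ← map_mul, mul_comm z⁻¹]

theorem tau_xc [Finite F] (z w : Fˣ) (t : F) :
    cj (tau A B z w) (xc A B t) = xc A B ((w : F) * t) := by
  have e : tau A B z w = cj (B (N : SpecialLinearGroup (Fin 2) F)) (tau A B z (z * z * w⁻¹)) := by
    rw [Nb_tau h hgen]; congr 1
    rw [_root_.mul_inv_rev, inv_inv, mul_comm w, ← mul_assoc, mul_inv_cancel, one_mul]
  have e2 : tau A B z w * B (N : SpecialLinearGroup (Fin 2) F) =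
      B N * tau A B z (z * z * w⁻¹) := by rw [e, cj_def, inv_mul_cancel_right]
  rw [show xc A B t = cj (B N) (xa A t) from rfl, cj_cj, e2, ← cj_cj, tau_xa h hgen,
    show xc A B ((w : F) * t) = cj (B N) (xa A ((w : F) * t)) from rfl]
  congr 2
  push_cast
  field_simp

theorem tau_xd [Finite F] (z w : Fˣ) (t : F) :
    cj (tau A B z w) (xd A B t) = xd A B ((z : F) ^ 2 * t) := by
  have e : tau A B z w = cj (A (N : SpecialLinearGroup (Fin 2) F)) (tau A B (w * z⁻¹) w) := by
    rw [Na_tau h hgen]; congr 1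
    rw [_root_.mul_inv_rev, inv_inv, mul_comm z, ← mul_assoc, mul_inv_cancel, one_mul]
  have e2 : tau A B z w * A (N : SpecialLinearGroup (Fin 2) F) =
      A N * tau A B (w * z⁻¹) w := by rw [e, cj_def, inv_mul_cancel_right]
  rw [show xd A B t = cj (A N) (xb B t) from rfl, cj_cj, e2, ← cj_cj, tau_xb h hgen,
    show xd A B ((z : F) ^ 2 * t) = cj (A N) (xb B ((z : F) ^ 2 * t)) from rfl]
  congr 2
  push_cast
  field_simp

theorem comm_ad [Finite F] (t s : F) : Commute (xa A t) (xd A B s) := by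
  rcases eq_or_ne t 0 with rfl | ht
  · rw [xa_zero]; exact Commute.one_left _
  refine of_squares (P := fun s => Commute (xa A t) (xd A B s)) (by rw [xd_zero]; exact Commute.one_right _)
    (fun a b ha hb => by rw [xd_add]; exact ha.mul_right hb) (fun z => ?_) s
  have h0 : Commute (xa A (1 : F)) (xd A B 1) :=
    h (A (U 1) * (A N * B (U 1) * (A N)⁻¹), A N * B (U 1) * (A N)⁻¹ * A (U 1)) (by simp [pairs])
  have := h0.map (cj (tau A B z (z * z * (Units.mk0 t ht)⁻¹)))
  rw [tau_xa h hgen, tau_xd h hgen] at this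
  convert this using 2 <;> · simp [field]

theorem comm_bc [Finite F] (s t : F) : Commute (xb B s) (xc A B t) := by
  rcases eq_or_ne t 0 with rfl | ht
  · rw [xc_zero]; exact Commute.one_right _
  refine of_squares (P := fun s => Commute (xb B s) (xc A B t)) (by rw [xb_zero]; exact Commute.one_left _)
    (fun a b ha hb => by rw [xb_add]; exact ha.mul_left hb) (fun r => ?_) s
  have h0 : Commute (xb B (1 : F)) (xc A B 1) :=
    h (B (U 1) * (B N * A (U 1) * (B N)⁻¹), B N * A (U 1) * (B N)⁻¹ * B (U 1)) (by simp [pairs])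
  have := h0.map (cj (tau A B (Units.mk0 t ht * r⁻¹) (Units.mk0 t ht)))
  rw [tau_xb h hgen, tau_xc h hgen] at this
  convert this using 2 <;> · simp [field]

theorem comm_bd [Finite F] (s t : F) : Commute (xb B s) (xd A B t) := by
  refine of_squares (P := fun t => Commute (xb B s) (xd A B t)) (by rw [xd_zero]; exact Commute.one_right _)
    (fun a b ha hb => by rw [xd_add]; exact ha.mul_right hb) (fun z => ?_) t
  refine of_squares (P := fun s => Commute (xb B s) (xd A B ((z : F) ^ 2))) (by rw [xb_zero]; exact Commute.one_left _)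
    (fun a b ha hb => by rw [xb_add]; exact ha.mul_left hb) (fun r => ?_) s
  have h0 : Commute (xb B (1 : F)) (xd A B 1) :=
    h (B (U 1) * (A N * B (U 1) * (A N)⁻¹), A N * B (U 1) * (A N)⁻¹ * B (U 1)) (by simp [pairs])
  have := h0.map (cj (tau A B z (r * z)))
  rw [tau_xb h hgen, tau_xd h hgen] at this
  convert this using 2 <;> · push_cast; field_simp

theorem comm_cd [Finite F] (s t : F) : Commute (xc A B s) (xd A B t) := by
  rcases eq_or_ne s 0 with rfl | hs
  · rw [xc_zero]; exact Commute.one_left _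
  refine of_squares (P := fun t => Commute (xc A B s) (xd A B t)) (by rw [xd_zero]; exact Commute.one_right _)
    (fun a b ha hb => by rw [xd_add]; exact ha.mul_right hb) (fun z => ?_) t
  have h0 : Commute (xc A B (1 : F)) (xd A B 1) :=
    h (B N * A (U 1) * (B N)⁻¹ * (A N * B (U 1) * (A N)⁻¹),
      A N * B (U 1) * (A N)⁻¹ * (B N * A (U 1) * (B N)⁻¹)) (by simp [pairs])
  have := h0.map (cj (tau A B z (Units.mk0 s hs)))
  rw [tau_xc h hgen, tau_xd h hgen] at this
  convert this using 2 <;> simp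

theorem rel_ac [Finite F] (t s : F) :
    cj (xa A t) (xc A B s) = xc A B s * xd A B (-2 * t * s) := by
  rcases eq_or_ne s 0 with rfl | hs
  · simp [xc_zero, xd_zero]
  have h0 : cj (xa A (1 : F)) (xc A B 1) = xc A B 1 * xd A B (-2) :=
    h (A (U 1) * (B N * A (U 1) * (B N)⁻¹) * (A (U 1))⁻¹,
      (B N * A (U 1) * (B N)⁻¹) * (A N * B (U (-2)) * (A N)⁻¹)) (by simp [pairs])
  have key : ∀ a : F, cj (xa A (a * s⁻¹)) (xc A B s) = xc A B s * xd A B (-2 * a) := by
    refine of_squares (by simp [xa_zero, xd_zero]) (fun a b ha hb => ?_) fun z => ?_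
    · rw [add_mul, xa_add, ← cj_cj, hb, map_mul, ha, mul_add, xd_add, cj_def _ (xd A B (-2 * b)),
        (comm_ad h hgen _ _).eq, mul_inv_cancel_right, mul_assoc]
    · have h1 := congrArg (cj (tau A B z (Units.mk0 s hs))) h0
      rw [cj_def (xa A (1 : F)), map_mul, map_mul, map_inv, map_mul, tau_xa h hgen, tau_xc h hgen,
        tau_xd h hgen, ← cj_def, Units.val_mk0, mul_one, mul_one] at h1
      rw [h1, mul_comm (-2 : F)]
  have := key (t * s)
  rwa [mul_assoc t, mul_inv_cancel₀ hs, mul_one, ← mul_assoc] at this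

theorem rel_ab [Finite F] (t s : F) :
    cj (xa A t) (xb B s) = xb B s * xc A B (-t * s) * xd A B (t ^ 2 * s) := by
  rcases eq_or_ne t 0 with rfl | ht
  · simp [xa_zero, xc_zero, xd_zero]
  refine of_squares (P := fun s => cj (xa A t) (xb B s) = xb B s * xc A B (-t * s) * xd A B (t ^ 2 * s))
    (by simp [xb_zero, xc_zero, xd_zero]) (fun a b ha hb => ?_) (fun r => ?_) s
  · simp only [xb_add, map_mul, ha, hb, mul_add, xc_add, xd_add]
    calc xb B a * xc A B (-t * a) * xd A B (t ^ 2 * a) * (xb B b * xc A B (-t * b) * xd A B (t ^ 2 * b))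
        = xb B a * xc A B (-t * a) * (xd A B (t ^ 2 * a) * xb B b) * xc A B (-t * b) *
            xd A B (t ^ 2 * b) := by group
      _ = xb B a * (xc A B (-t * a) * xb B b) * (xd A B (t ^ 2 * a) * xc A B (-t * b)) *
            xd A B (t ^ 2 * b) := by rw [← (comm_bd h hgen _ _).eq]; group
      _ = _ := by rw [← (comm_bc h hgen _ _).eq, ← (comm_cd h hgen _ _).eq]; group
  · have h0 : cj (xa A (1 : F)) (xb B 1) = xb B 1 * xc A B (-1) * xd A B 1 :=
      h (A (U 1) * B (U 1) * (A (U 1))⁻¹,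
        B (U 1) * (B N * A (U (-1)) * (B N)⁻¹) * (A N * B (U 1) * (A N)⁻¹)) (by simp [pairs])
    have h1 := congrArg (cj (tau A B (Units.mk0 t ht * r) (Units.mk0 t ht * r * r))) h0
    rw [cj_def (xa A (1 : F)), map_mul, map_mul, map_inv, map_mul, map_mul, tau_xa h hgen, tau_xb h hgen,
      tau_xc h hgen, tau_xd h hgen, ← cj_def] at h1
    have e1 : ((Units.mk0 t ht * r : Fˣ) : F) ^ 2 * ((Units.mk0 t ht * r * r : Fˣ) : F)⁻¹ * 1 = t := by
      push_cast [Units.val_mk0]; field_simp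
    have e2 : ((Units.mk0 t ht * r * r : Fˣ) : F) ^ 2 * (((Units.mk0 t ht * r : Fˣ) : F) ^ 2)⁻¹ * 1 = (r : F) ^ 2 := by
      push_cast [Units.val_mk0]; field_simp
    have e3 : ((Units.mk0 t ht * r * r : Fˣ) : F) * -1 = -t * (r : F) ^ 2 := by
      push_cast [Units.val_mk0]; ring
    have e4 : ((Units.mk0 t ht * r : Fˣ) : F) ^ 2 * 1 = t ^ 2 * (r : F) ^ 2 := by
      push_cast [Units.val_mk0]; ring
    rwa [e1, e2, e3, e4] at h1

theorem Na_xc [Finite F] (t : F) :
    cj (A (N : SpecialLinearGroup (Fin 2) F)) (xc A B t) = xc A B (-t) := by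
  rcases eq_or_ne t 0 with rfl | ht
  · simp [xc_zero]
  have h0 : cj (A (N : SpecialLinearGroup (Fin 2) F)) (xc A B 1) = xc A B (-1) :=
    h (A (N : SpecialLinearGroup (Fin 2) F) * (B N * A (U 1) * (B N)⁻¹) * (A N)⁻¹,
      B N * A (U (-1)) * (B N)⁻¹) (by simp [pairs])
  set w : Fˣ := Units.mk0 t ht
  have e : xc A B t = cj (tau A B 1 w) (xc A B 1) := by rw [tau_xc h hgen, mul_one]; rfl
  have e2 : A (N : SpecialLinearGroup (Fin 2) F) * tau A B 1 w = tau A B w w * A N := by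
    have := Na_tau h hgen 1 w
    rw [inv_one, mul_one] at this
    rw [← this, cj_def, inv_mul_cancel_right]
  rw [e, cj_cj, e2, ← cj_cj, h0, tau_xc h hgen, mul_neg_one]
  rfl

theorem Nb_xd [Finite F] (t : F) :
    cj (B (N : SpecialLinearGroup (Fin 2) F)) (xd A B t) = xd A B t := by
  refine of_squares (P := fun t => cj (B (N : SpecialLinearGroup (Fin 2) F)) (xd A B t) = xd A B t)
    (by simp [xd_zero]) (fun a b ha hb => by rw [xd_add, map_mul, ha, hb]) (fun z => ?_) t
  have h0 : cj (B (N : SpecialLinearGroup (Fin 2) F)) (xd A B 1) = xd A B 1 :=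
    h (B (N : SpecialLinearGroup (Fin 2) F) * (A N * B (U 1) * (A N)⁻¹) * (B N)⁻¹,
      A N * B (U 1) * (A N)⁻¹) (by simp [pairs])
  have e : xd A B ((z : F) ^ 2) = cj (tau A B z 1) (xd A B 1) := by rw [tau_xd h hgen, mul_one]
  have e2 : B (N : SpecialLinearGroup (Fin 2) F) * tau A B z 1 = tau A B z (z * z) * B N := by
    have := Nb_tau h hgen z 1
    rw [inv_one, mul_one] at this
    rw [← this, cj_def, inv_mul_cancel_right]
  rw [e, cj_cj, e2, ← cj_cj, h0, tau_xd h hgen, tau_xd h hgen]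

end Cfsg.Agent.Sp4Pres
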